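import Cfsg.Agent.H141.Rg.Lin

/-!
# S5714, piece C5: `dv_le`, `dv2_le`, `rep2_le` (helper560)
-/

set_option autoImplicit false
set_option linter.unusedSectionVars false

namespace Cfsg.Agent.H560.Rg

open Cfsg.Agent.H141.Rg
open Polynomial Module

section alg

variable {K V : Type*} [Field K] [AddCommGroup V] [Module K V]

theorem aeval_mul_apply (y : V →ₗ[K] V) (f g : K[X]) (v : V) : aeval y (f * g) v = aeval y f (aeval y g v) := by
  rw [map_mul]; rfl

theorem apply_of_dvd {y : V →ₗ[K] V} {f g : K[X]} {v : V} (h : aeval y f v = 0) (hd : f ∣ g) : aeval y g v = 0 := by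
  obtain ⟨k, rfl⟩ := hd
  rw [mul_comm, aeval_mul_apply, h, map_zero]

theorem eq_zero_of_coprime {y : V →ₗ[K] V} {f g : K[X]} {v : V} (hc : IsCoprime f g) (hf : aeval y f v = 0)
    (hg : aeval y g v = 0) : v = 0 := by
  obtain ⟨a, b, hab⟩ := hc
  have h1 : aeval y (a * f + b * g) v = 0 := by
    rw [map_add, LinearMap.add_apply, aeval_mul_apply, aeval_mul_apply, hf, hg, map_zero, map_zero, add_zero]
  rwa [hab, map_one] at h1

theorem ann_of_irr {y : V →ₗ[K] V} {φ : K[X]} (hφ : Irreducible φ) {v : V} (hv : v ≠ 0) (h : aeval y φ v = 0) :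
    Ann y v φ := by
  intro g
  constructor
  · intro hg
    by_contra hd
    exact hv (eq_zero_of_coprime (hφ.coprime_iff_not_dvd.2 hd) h hg)
  · exact apply_of_dvd h

theorem ann_sq_of_irr {y : V →ₗ[K] V} {φ : K[X]} (hφ : Irreducible φ) {v : V} (hv : aeval y φ v ≠ 0)
    (h : aeval y (φ ^ 2) v = 0) : Ann y v (φ ^ 2) := by
  have hA : Ann y (aeval y φ v) φ := ann_of_irr hφ hv (by rw [← aeval_mul_apply, ← pow_two, h])
  intro g
  constructor
  · intro hg
    have h1 : aeval y g (aeval y φ v) = 0 := by rw [← aeval_mul_apply, mul_comm, aeval_mul_apply, hg, map_zero]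
    obtain ⟨k, rfl⟩ := (hA g).1 h1
    have h2 : aeval y k (aeval y φ v) = 0 := by rw [← aeval_mul_apply, mul_comm, hg]
    obtain ⟨l, rfl⟩ := (hA k).1 h2
    exact ⟨l, by ring⟩
  · exact apply_of_dvd h

theorem ann_add {y : V →ₗ[K] V} {f g : K[X]} (hc : IsCoprime f g) {u w : V} (hu : Ann y u f) (hw : Ann y w g) :
    Ann y (u + w) (f * g) := by
  have hu0 := (hu f).2 dvd_rfl
  have hw0 := (hw g).2 dvd_rfl
  intro k
  constructor
  · intro hk
    have h1 : aeval y k u = -(aeval y k w) := by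
      rw [map_add] at hk
      exact eq_neg_of_add_eq_zero_left hk
    have h2 : aeval y f (aeval y k u) = 0 := by
      rw [← aeval_mul_apply, mul_comm, aeval_mul_apply, hu0, map_zero]
    have h3 : aeval y g (aeval y k u) = 0 := by
      rw [h1, map_neg, ← aeval_mul_apply, mul_comm, aeval_mul_apply, hw0, map_zero, neg_zero]
    have h4 := eq_zero_of_coprime hc h2 h3
    have h5 : aeval y k w = 0 := by
      rw [h4] at h1
      exact neg_eq_zero.1 h1.symm
    exact hc.mul_dvd ((hu k).1 h4) ((hw k).1 h5)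
  · intro hk
    rw [map_add, (hu k).2 ((dvd_mul_right f g).trans hk), (hw k).2 ((dvd_mul_left g f).trans hk), add_zero]

/-- the number of vectors with given annihilator -/
noncomputable def nA (y : V →ₗ[K] V) (f : K[X]) : ℕ := Nat.card {v : V // Ann y v f}

theorem nA_mul [Finite V] (y : V →ₗ[K] V) {f g : K[X]} (hc : IsCoprime f g) : nA y f * nA y g ≤ nA y (f * g) := by
  unfold nA
  rw [← Nat.card_prod]
  refine Nat.card_le_card_of_injective
    (fun a : {v : V // Ann y v f} × {v : V // Ann y v g} => (⟨a.1.1 + a.2.1, ann_add hc a.1.2 a.2.2⟩ :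
      {v : V // Ann y v (f * g)})) ?_
  rintro ⟨⟨u, hu⟩, ⟨w, hw⟩⟩ ⟨⟨u', hu'⟩, ⟨w', hw'⟩⟩ h
  have h0 : u + w = u' + w' := congrArg Subtype.val h
  have h1 : u - u' = w' - w := by
    rw [sub_eq_sub_iff_add_eq_add, h0, add_comm]
  have h2 : aeval y f (u - u') = 0 := by
    rw [map_sub, (hu f).2 dvd_rfl, (hu' f).2 dvd_rfl, sub_zero]
  have h3 : aeval y g (u - u') = 0 := by
    rw [h1, map_sub, (hw g).2 dvd_rfl, (hw' g).2 dvd_rfl, sub_zero]
  have h4 := eq_zero_of_coprime hc h2 h3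
  have h5 : u = u' := sub_eq_zero.1 h4
  have h6 : w = w' := by rw [h4] at h1; exact (sub_eq_zero.1 h1.symm).symm
  subst h5 h6
  rfl

instance finite_degreeLT [Finite K] (n : ℕ) : Finite (degreeLT K n) := Finite.of_equiv _ (degreeLTEquiv K n).symm.toEquiv

theorem card_degreeLT [Finite K] (n : ℕ) : Nat.card (degreeLT K n) = Nat.card K ^ n := by
  rw [Nat.card_congr (degreeLTEquiv K n).toEquiv, Nat.card_fun, Nat.card_eq_fintype_card (α := Fin n), Fintype.card_fin]

/-- the vectors `g (y) v` -/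
theorem inj_aux {y : V →ₗ[K] V} {f : K[X]} (hf : f.Monic) {v : V} (hv : Ann y v f) {g g' : K[X]}
    (hg : g ∈ degreeLT K f.natDegree) (hg' : g' ∈ degreeLT K f.natDegree) (h : aeval y g v = aeval y g' v) : g = g' := by
  have h1 : aeval y (g - g') v = 0 := by
    rw [map_sub, LinearMap.sub_apply, h, sub_self]
  have h2 := (hv _).1 h1
  have h3 : g - g' ∈ degreeLT K f.natDegree := Submodule.sub_mem _ hg hg'
  rw [mem_degreeLT] at h3
  rw [← sub_eq_zero]
  refine Polynomial.eq_zero_of_dvd_of_degree_lt h2 ?_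
  rwa [degree_eq_natDegree hf.ne_zero]

theorem card_ker [Finite K] [Finite V] {y : V →ₗ[K] V} {φ : K[X]} (hφ : Irreducible φ) (hm : φ.Monic) {v : V} (hv : v ≠ 0)
    (h : aeval y φ v = 0) : Nat.card K ^ φ.natDegree ≤ Nat.card (LinearMap.ker (aeval y φ)) := by
  rw [← card_degreeLT]
  have hA := ann_of_irr hφ hv h
  refine Nat.card_le_card_of_injective (fun g : degreeLT K φ.natDegree => (⟨aeval y g.1 v, by
    rw [LinearMap.mem_ker, ← aeval_mul_apply, mul_comm, aeval_mul_apply, h, map_zero]⟩ :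
      LinearMap.ker (aeval y φ))) ?_
  rintro ⟨g, hg⟩ ⟨g', hg'⟩ hgg
  exact Subtype.ext (inj_aux hm hA hg hg' (congrArg Subtype.val hgg))

/-- the nonzero vectors of the kernel -/
theorem nA_ker [Finite V] (y : V →ₗ[K] V) {φ : K[X]} (hφ : Irreducible φ) :
    Nat.card (LinearMap.ker (aeval y φ)) ≤ nA y φ + 1 := by
  classical
  unfold nA
  have h0 : Nat.card (Option {v : V // Ann y v φ}) = Nat.card {v : V // Ann y v φ} + 1 := Finite.card_option
  rw [← h0]
  refine Nat.card_le_card_of_injective (fun v : LinearMap.ker (aeval y φ) => if hv : v.1 = 0 then none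
    else some (⟨v.1, ann_of_irr hφ hv (LinearMap.mem_ker.1 v.2)⟩ : {v : V // Ann y v φ})) ?_
  rintro ⟨v, hv⟩ ⟨w, hw⟩ h
  by_cases h1 : v = 0
  · by_cases h2 : w = 0
    · subst h1 h2; rfl
    · simp [h1, h2] at h
  · by_cases h2 : w = 0
    · simp [h1, h2] at h
    · simp only [h1, h2, dite_false, Option.some.injEq, Subtype.mk.injEq] at h
      exact Subtype.ext h

/-- the generators of a cyclic module -/
theorem nA_pow [Finite K] [Finite V] {y : V →ₗ[K] V} {φ : K[X]} (hφ : Irreducible φ) (hm : φ.Monic) {b : ℕ} (hb : 1 ≤ b)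
    {v : V} (hv : Ann y v (φ ^ b)) :
    (Nat.card K ^ φ.natDegree) ^ b ≤ nA y (φ ^ b) + (Nat.card K ^ φ.natDegree) ^ (b - 1) := by
  classical
  obtain ⟨c, rfl⟩ : ∃ c, b = c + 1 := ⟨b - 1, by omega⟩
  rw [Nat.add_sub_cancel, ← pow_mul, ← pow_mul, ← card_degreeLT, ← card_degreeLT]
  have hdeg : (φ ^ (c + 1)).natDegree = φ.natDegree * (c + 1) := by rw [natDegree_pow, mul_comm]
  unfold nA
  rw [← Nat.card_sum]
  have key : ∀ g : degreeLT K (φ.natDegree * (c + 1)), ¬ φ ∣ g.1 → Ann y (aeval y g.1 v) (φ ^ (c + 1)) := by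
    intro g hg k
    rw [← aeval_mul_apply, hv]
    have hcop : IsCoprime (φ ^ (c + 1)) g.1 := ((hφ.coprime_iff_not_dvd).2 hg).pow_left
    exact ⟨fun h => hcop.dvd_of_dvd_mul_right h, fun h => dvd_mul_of_dvd_left h _⟩
  have key2 : ∀ g : degreeLT K (φ.natDegree * (c + 1)), φ ∣ g.1 → ∃ k : degreeLT K (φ.natDegree * c), φ * k.1 = g.1 := by
    rintro ⟨g, hg⟩ ⟨k, hk⟩
    refine ⟨⟨k, ?_⟩, hk.symm⟩
    rw [mem_degreeLT] at hg ⊢
    by_cases hk0 : k = 0
    · rw [hk0, degree_zero]; exact WithBot.bot_lt_coe _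
    · simp only at hk
      rw [hk, degree_mul, degree_eq_natDegree hφ.ne_zero, degree_eq_natDegree hk0, ← Nat.cast_add, Nat.cast_lt] at hg
      rw [degree_eq_natDegree hk0, Nat.cast_lt]
      have : φ.natDegree * (c + 1) = φ.natDegree * c + φ.natDegree := by ring
      omega
  choose k₀ hk₀ using key2
  refine Nat.card_le_card_of_injective (fun g : degreeLT K (φ.natDegree * (c + 1)) =>
    if hg : φ ∣ g.1 then (Sum.inr (k₀ g hg) : {v : V // Ann y v (φ ^ (c + 1))} ⊕ degreeLT K (φ.natDegree * c))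
    else Sum.inl ⟨_, key g hg⟩) ?_
  intro g g' h
  by_cases h1 : φ ∣ g.1
  · by_cases h2 : φ ∣ g'.1
    · simp only [h1, h2, dite_true, Sum.inr.injEq] at h
      apply Subtype.ext
      rw [← hk₀ g h1, ← hk₀ g' h2, h]
    · simp [h1, h2] at h
  · by_cases h2 : φ ∣ g'.1
    · simp [h1, h2] at h
    · simp only [h1, h2, dite_false, Sum.inl.injEq, Subtype.mk.injEq] at h
      apply Subtype.ext
      have hm' : (φ ^ (c + 1)).Monic := hm.pow _
      exact inj_aux hm' hv (by rw [hdeg]; exact g.2) (by rw [hdeg]; exact g'.2) h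

theorem coeff_zero_ne {f : K[X]} (hf : Irr' f) : f.coeff 0 ≠ 0 := by
  intro h
  obtain ⟨hm, hi, hX⟩ := hf
  have h1 : Polynomial.X ∣ f := X_dvd_iff.2 h
  exact hX (Polynomial.eq_of_monic_of_associated hm monic_X (irreducible_X.associated_of_dvd hi h1).symm)

theorem coprime_of_ne {f g : K[X]} (hf : Irr' f) (hg : Irr' g) (hfg : f ≠ g) : IsCoprime f g := by
  refine hf.2.1.coprime_iff_not_dvd.2 fun hd => hfg ?_
  exact Polynomial.eq_of_monic_of_associated hf.1 hg.1 (hf.2.1.associated_of_dvd hg.2.1 hd)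

end alg

section main

variable {K V : Type} [Field K] [Finite K] [AddCommGroup V] [Module K V] [Finite V] {X : Type} [Group X] [Finite X]

/-- the first moment method -/
theorem fm_count {τ : X →* (V →ₗ[K] V)} {f : K[X]} {C : ℝ} (h : (Nat.card {p : X × V // Ann (τ p.1) p.2 f} : ℝ) ≤ C)
    {P : X → Prop} {N : ℝ} (hN : ∀ x, P x → N ≤ nA (τ x) f) : (Nat.card {x : X // P x} : ℝ) * N ≤ C := by
  classical
  have hFG : Fintype X := Fintype.ofFinite X
  refine le_trans ?_ h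
  have e : {p : X × V // Ann (τ p.1) p.2 f} ≃ Σ x : X, {v : V // Ann (τ x) v f} :=
    { toFun := fun a => ⟨a.1.1, a.1.2, a.2⟩
      invFun := fun a => ⟨(a.1, a.2.1), a.2.2⟩
      left_inv := fun _ => rfl
      right_inv := fun _ => rfl }
  rw [Nat.card_congr e, Nat.card_sigma]
  push_cast
  calc (Nat.card {x : X // P x} : ℝ) * N = ∑ x ∈ Finset.univ.filter P, N := by
        rw [Finset.sum_const, nsmul_eq_mul, Nat.card_eq_fintype_card, Fintype.card_subtype]
    _ ≤ ∑ x ∈ Finset.univ.filter P, (Nat.card {v : V // Ann (τ x) v f} : ℝ) :=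
        Finset.sum_le_sum fun x hx => hN x (Finset.mem_filter.1 hx).2
    _ ≤ ∑ x : X, (Nat.card {v : V // Ann (τ x) v f} : ℝ) :=
        Finset.sum_le_sum_of_subset_of_nonneg (Finset.filter_subset _ _) fun _ _ _ => Nat.cast_nonneg _

theorem one_lt_q {f : K[X]} (hf : Irr' f) : (1 : ℝ) < (Nat.card K : ℝ) ^ f.natDegree := by
  have h1 : 1 < Nat.card K := Finite.one_lt_card
  exact one_lt_pow₀ (by exact_mod_cast h1) hf.2.1.natDegree_pos.ne'

theorem nA_of_dv {y : V →ₗ[K] V} {f : K[X]} (hf : Irr' f) (h : Dv y f) :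
    (Nat.card K : ℝ) ^ f.natDegree - 1 ≤ nA y f := by
  obtain ⟨v, hv, h0⟩ := h
  have h1 : Nat.card K ^ f.natDegree ≤ nA y f + 1 := (card_ker hf.2.1 hf.1 hv h0).trans (nA_ker y hf.2.1)
  have h2 : (Nat.card K : ℝ) ^ f.natDegree ≤ nA y f + 1 := by exact_mod_cast h1
  linarith

theorem dv_le {σ : K →+* K} {τ : X →* (V →ₗ[K] V)} {s : K[X]} {c : ℕ → ℝ} (h : EL σ τ s c) {f : K[X]} (hf : Irr' f)
    (hs : IsCoprime f s) : (Nat.card {x : X // Dv (τ x) f} : ℝ) * ((Nat.card K : ℝ) ^ f.natDegree - 1) ≤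
      c f.natDegree * Real.sqrt ((Nat.card K : ℝ) ^ ed σ f) * Nat.card X :=
  fm_count (h f hf.1 (coeff_zero_ne hf) hs) fun _ hx => nA_of_dv hf hx

theorem dv2_le {σ : K →+* K} {τ : X →* (V →ₗ[K] V)} {s : K[X]} {c : ℕ → ℝ} (h : EL σ τ s c) {f g : K[X]} (hf : Irr' f)
    (hg : Irr' g) (hfg : f ≠ g) (hs : IsCoprime f s) (hs' : IsCoprime g s) :
    (Nat.card {x : X // Dv (τ x) f ∧ Dv (τ x) g} : ℝ) * (((Nat.card K : ℝ) ^ f.natDegree - 1) *
      ((Nat.card K : ℝ) ^ g.natDegree - 1)) ≤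
      c (f.natDegree + g.natDegree) * Real.sqrt ((Nat.card K : ℝ) ^ ed σ (f * g)) * Nat.card X := by
  have h1 := h (f * g) (hf.1.mul hg.1) (by rw [mul_coeff_zero]; exact mul_ne_zero (coeff_zero_ne hf) (coeff_zero_ne hg))
    (hs.mul_left hs')
  rw [natDegree_mul hf.2.1.ne_zero hg.2.1.ne_zero] at h1
  refine fm_count h1 fun x hx => ?_
  have h2 := nA_of_dv hf hx.1
  have h3 := nA_of_dv hg hx.2
  have h4 : (nA (τ x) f : ℝ) * nA (τ x) g ≤ nA (τ x) (f * g) := by
    exact_mod_cast nA_mul (τ x) (coprime_of_ne hf hg hfg)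
  exact le_trans (mul_le_mul h2 h3 (sub_nonneg.2 (one_lt_q hg).le) (Nat.cast_nonneg _)) h4

theorem rep2_le {σ : K →+* K} {τ : X →* (V →ₗ[K] V)} {s : K[X]} {c : ℕ → ℝ} (h : EL σ τ s c) {f : K[X]} (hf : Irr' f)
    (hs : IsCoprime f s) : (Nat.card {x : X // Rep2 (τ x) f} : ℝ) ≤
      (c f.natDegree * Real.sqrt ((Nat.card K : ℝ) ^ ed σ f) / ((Nat.card K : ℝ) ^ (2 * f.natDegree) - 1) +
       c (2 * f.natDegree) * Real.sqrt ((Nat.card K : ℝ) ^ ed σ (f ^ 2)) / ((Nat.card K : ℝ) ^ f.natDegree *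
        ((Nat.card K : ℝ) ^ f.natDegree - 1))) * Nat.card X := by
  classical
  have hq := one_lt_q hf
  have hq2 : (1 : ℝ) < (Nat.card K : ℝ) ^ (2 * f.natDegree) := by
    rw [mul_comm, pow_mul]
    exact one_lt_pow₀ hq two_ne_zero
  have h1 := h f hf.1 (coeff_zero_ne hf) hs
  have h2 := h (f ^ 2) (hf.1.pow 2) (by
    rw [pow_two, mul_coeff_zero]; exact mul_ne_zero (coeff_zero_ne hf) (coeff_zero_ne hf)) hs.pow_left
  rw [natDegree_pow] at h2
  have k1 : (Nat.card {x : X // 2 * f.natDegree ≤ finrank K (LinearMap.ker (aeval (τ x) f))} : ℝ) *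
      ((Nat.card K : ℝ) ^ (2 * f.natDegree) - 1) ≤ c f.natDegree * Real.sqrt ((Nat.card K : ℝ) ^ ed σ f) * Nat.card X := by
    refine fm_count h1 fun x hx => ?_
    have e1 : Nat.card (LinearMap.ker (aeval (τ x) f)) = Nat.card K ^ finrank K (LinearMap.ker (aeval (τ x) f)) :=
      Module.natCard_eq_pow_finrank
    have e2 : Nat.card K ^ (2 * f.natDegree) ≤ nA (τ x) f + 1 :=
      (Nat.pow_le_pow_right Nat.card_pos hx).trans (e1 ▸ nA_ker (τ x) hf.2.1)
    have e3 : (Nat.card K : ℝ) ^ (2 * f.natDegree) ≤ nA (τ x) f + 1 := by exact_mod_cast e2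
    linarith
  have k2 : (Nat.card {x : X // ∃ v, aeval (τ x) (f ^ 2) v = 0 ∧ aeval (τ x) f v ≠ 0} : ℝ) *
      ((Nat.card K : ℝ) ^ f.natDegree * ((Nat.card K : ℝ) ^ f.natDegree - 1)) ≤
      c (2 * f.natDegree) * Real.sqrt ((Nat.card K : ℝ) ^ ed σ (f ^ 2)) * Nat.card X := by
    refine fm_count h2 fun x hx => ?_
    obtain ⟨v, hv, hv'⟩ := hx
    have e2 := nA_pow hf.2.1 hf.1 (b := 2) (by norm_num) (ann_sq_of_irr hf.2.1 hv' hv)
    have e3 : ((Nat.card K : ℝ) ^ f.natDegree) ^ 2 ≤ nA (τ x) (f ^ 2) + ((Nat.card K : ℝ) ^ f.natDegree) ^ (2 - 1) := by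
      exact_mod_cast e2
    rw [show 2 - 1 = 1 from rfl, pow_one] at e3
    nlinarith
  have k3 : (Nat.card {x : X // Rep2 (τ x) f} : ℝ) ≤
      Nat.card {x : X // 2 * f.natDegree ≤ finrank K (LinearMap.ker (aeval (τ x) f))} +
      Nat.card {x : X // ∃ v, aeval (τ x) (f ^ 2) v = 0 ∧ aeval (τ x) f v ≠ 0} := by
    have : Nat.card {x : X // Rep2 (τ x) f} ≤
        Nat.card ({x : X // 2 * f.natDegree ≤ finrank K (LinearMap.ker (aeval (τ x) f))} ⊕
          {x : X // ∃ v, aeval (τ x) (f ^ 2) v = 0 ∧ aeval (τ x) f v ≠ 0}) := by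
      refine Nat.card_le_card_of_injective (fun x => if hx : 2 * f.natDegree ≤ finrank K (LinearMap.ker (aeval (τ x.1) f))
        then Sum.inl ⟨x.1, hx⟩ else Sum.inr ⟨x.1, x.2.resolve_left hx⟩) ?_
      intro x x' hxx
      by_cases c1 : 2 * f.natDegree ≤ finrank K (LinearMap.ker (aeval (τ x.1) f)) <;>
        by_cases c2 : 2 * f.natDegree ≤ finrank K (LinearMap.ker (aeval (τ x'.1) f)) <;>
        simp only [c1, c2, dite_true, dite_false, Sum.inl.injEq, Sum.inr.injEq, Subtype.mk.injEq, reduceCtorEq] at hxx <;>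
        exact Subtype.ext hxx
    rw [Nat.card_sum] at this
    exact_mod_cast this
  have p1 : (0 : ℝ) < (Nat.card K : ℝ) ^ (2 * f.natDegree) - 1 := by linarith
  have p2 : (0 : ℝ) < (Nat.card K : ℝ) ^ f.natDegree * ((Nat.card K : ℝ) ^ f.natDegree - 1) :=
    mul_pos (by linarith) (by linarith)
  have m1 := (le_div_iff₀ p1).2 k1
  have m2 := (le_div_iff₀ p2).2 k2
  calc (Nat.card {x : X // Rep2 (τ x) f} : ℝ) ≤ _ := k3
    _ ≤ _ := add_le_add m1 m2
    _ = _ := by ring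

end main

end Cfsg.Agent.H560.Rg
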